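import Groth.Agent.Ega2.DVRDominate
import Mathlib.RingTheory.Valuation.LocalSubring
import Mathlib.RingTheory.IntegralClosure.IntegrallyClosed

/-!
# A Noetherian normal local domain is the intersection of the discrete valuation rings dominating it
-/

set_option autoImplicit false

universe u

namespace Groth.Agent.Ega4late.H541.DvrIntegral

open IsLocalRing

set_option linter.unusedSectionVars false

variable {A : Type u} [CommRing A] [IsDomain A] [IsLocalRing A] [IsNoetherianRing A]
  {K : Type u} [Field K] [Algebra A K] [IsFractionRing A K]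

/-- The local subring of `K` given by `A`. -/
lemma range_isLocalHom (V : ValuationSubring K)
    (h1 : ∀ a : A, algebraMap A K a ∈ V) (h2 : ∀ a ∈ maximalIdeal A, algebraMap A K a ∈ V.nonunits) :
    ∀ a : A, algebraMap A K a ∈ V.nonunits ↔ a ∈ maximalIdeal A := by
  intro a
  refine ⟨fun h => ?_, h2 a⟩
  by_contra hna
  have hu : IsUnit a := by
    rw [mem_maximalIdeal, mem_nonunits_iff, not_not] at hna
    exact hna
  obtain ⟨b, hb⟩ := isUnit_iff_exists_inv.mp hu
  rw [ValuationSubring.mem_nonunits_iff] at h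
  have h3 := (V.valuation_le_one_iff _).mpr (h1 b)
  have h4 : V.valuation (algebraMap A K a * algebraMap A K b) = 1 := by
    rw [← map_mul, hb, map_one, map_one]
  rw [map_mul] at h4
  exact absurd h4 (mul_lt_one_of_lt_of_le h h3).ne

/-- Let `A` be a Noetherian integrally closed local domain with fraction field `K` and `c ∈ K` not in
`A`. Then there is a discrete valuation ring of `K` dominating `A` and not containing `c`. -/
theorem exists_dvr_not_mem (hA : IsIntegrallyClosed A) {c : K} (hc : c ∉ Set.range (algebraMap A K)) :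
    ∃ V : ValuationSubring K, IsDiscreteValuationRing V ∧ (∀ a : A, algebraMap A K a ∈ V) ∧
      (∀ a : A, algebraMap A K a ∈ V.nonunits ↔ a ∈ maximalIdeal A) ∧ c ∉ V := by
  classical
  have hinj := IsFractionRing.injective A K
  let R : LocalSubring K := LocalSubring.range (algebraMap A K)
  have hR : IsIntegrallyClosedIn R.toSubring K := by
    rw [isIntegrallyClosedIn_iff]
    refine ⟨Subtype.val_injective, ?_⟩
    intro x hx
    have h1 : IsIntegral A x := by
      obtain ⟨p, hp, hpx⟩ := hx
      let e : A ≃+* R.toSubring := RingEquiv.ofBijective (algebraMap A K).rangeRestrict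
        ⟨fun a b h => hinj (congrArg Subtype.val h), (algebraMap A K).rangeRestrict_surjective⟩
      refine ⟨p.map e.symm.toRingHom, hp.map _, ?_⟩
      rw [Polynomial.eval₂_map]
      have hcomp : (algebraMap A K).comp e.symm.toRingHom = algebraMap R.toSubring K := by
        refine RingHom.ext fun y => ?_
        have h2 : ((e (e.symm y) : R.toSubring) : K) = (y : K) := by rw [e.apply_symm_apply]
        exact h2
      rw [hcomp]
      exact hpx
    obtain ⟨a, ha⟩ := IsIntegrallyClosed.isIntegral_iff.mp h1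
    exact ⟨⟨x, ⟨a, ha⟩⟩, rfl⟩
  have hcR : c ∉ R.toSubring := hc
  obtain ⟨V, hV, hcV⟩ := LocalSubring.exists_le_valuationSubring_of_isIntegrallyClosedIn hcR
  have hVA : ∀ a : A, algebraMap A K a ∈ V := fun a => hV.1 ⟨a, rfl⟩
  have hVm : ∀ a ∈ maximalIdeal A, algebraMap A K a ∈ V.nonunits := by
    intro a ha
    have h1 := (Ega2.DVRDominate.mem_nonunits_iff_of_le hV ⟨algebraMap A K a, ⟨a, rfl⟩⟩).mpr (by
      rw [mem_maximalIdeal, mem_nonunits_iff]
      intro h
      obtain ⟨⟨_, b, rfl⟩, hb⟩ := isUnit_iff_exists_inv.mp h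
      have hb' : algebraMap A K a * algebraMap A K b = 1 := congrArg Subtype.val hb
      rw [← map_mul, ← map_one (algebraMap A K)] at hb'
      exact (mem_maximalIdeal a).mp ha (IsUnit.of_mul_eq_one b (hinj hb')))
    exact h1
  have hc0 : c ≠ 0 := by
    rintro rfl
    exact hc ⟨0, map_zero _⟩
  have hcinv : c⁻¹ ∈ V.nonunits := (ValuationSubring.inv_mem_nonunits_iff _).mpr (Or.inr hcV)
  have hcinvV : c⁻¹ ∈ V := (V.mem_or_inv_mem c).resolve_left hcV
  obtain ⟨W, hW, hWA, hWn, hWT⟩ := Ega2.DVRDominate.exists_dvr_approx (R₀ := A) (K := K) ∅ (by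
      rw [Finset.coe_empty, Set.union_empty, eq_top_iff]
      intro z _
      obtain ⟨a, b, hb, rfl⟩ := IsFractionRing.div_surjective (A := A) z
      exact div_mem (Subfield.subset_closure ⟨a, rfl⟩) (Subfield.subset_closure ⟨b, rfl⟩))
    V hVA {c⁻¹} (by simpa using hcinvV) ⟨c⁻¹, Or.inl (by simp), inv_ne_zero hc0, hcinv⟩
  refine ⟨W, hW, hWA, fun a => ?_, ?_⟩
  · rw [hWn]
    exact range_isLocalHom V hVA hVm a
  · have h1 : c⁻¹ ∈ W.nonunits := (hWT c⁻¹ (by simp)).2.mpr hcinv
    rw [ValuationSubring.inv_mem_nonunits_iff] at h1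
    exact h1.resolve_left hc0

end Groth.Agent.Ega4late.H541.DvrIntegral
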