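import Groth.Agent.Ega4late.H541.DvrSection

/-!
# Extension of sections to the local scheme at a normal point
-/

set_option autoImplicit false
universe u
open CategoryTheory CategoryTheory.Limits AlgebraicGeometry IsLocalRing

namespace Groth.Agent.Ega4late.H541.DvrLocal

open SecGlue DvrSection

set_option linter.unusedSectionVars false

variable {X Y : Scheme.{u}} [IsLocallyNoetherian X] (q : Y ⟶ X) (U : X.Opens)
  (h : U.toScheme ⟶ Y) (x : X) (y₀ : Y)

/-- A discrete valuation ring of the fraction field of the local ring gives a morphism to `Y`. -/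
theorem exists_of_dvr {K : Type u} [Field K] [Algebra (X.presheaf.stalk x) K]
    (H : ∀ (R : Type u) [CommRing R] [IsDomain R] [IsDiscreteValuationRing R],
      DvrLift q U h x y₀ R (FractionRing R))
    (k : Spec (CommRingCat.of K) ⟶ U.toScheme) (hk : k ≫ U.ι = genMap X x K)
    (V : ValuationSubring K) (hV : IsDiscreteValuationRing V)
    (hVA : ∀ a, algebraMap (X.presheaf.stalk x) K a ∈ V)
    (hVm : ∀ a, algebraMap (X.presheaf.stalk x) K a ∈ V.nonunits ↔
      a ∈ maximalIdeal (X.presheaf.stalk x)) :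
    IsLocalHom ((algebraMap (X.presheaf.stalk x) K).codRestrict V.toSubring hVA) ∧
    ∃ h₁ : Spec (CommRingCat.of V) ⟶ Y, h₁ ≫ q = Spec.map (CommRingCat.ofHom
        ((algebraMap (X.presheaf.stalk x) K).codRestrict V.toSubring hVA)) ≫ X.fromSpecStalk x ∧
      h₁ (closedPoint V) = y₀ ∧
      Spec.map (CommRingCat.ofHom (algebraMap V K)) ≫ h₁ = k ≫ h := by
  let f : X.presheaf.stalk x →+* V := (algebraMap (X.presheaf.stalk x) K).codRestrict V.toSubring hVA
  have hf : IsLocalHom f := by
    refine ⟨fun a ha => ?_⟩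
    by_contra hna
    have h1 := (hVm a).mpr ((mem_maximalIdeal a).mpr hna)
    rw [ValuationSubring.mem_nonunits_iff_exists_mem_maximalIdeal] at h1
    obtain ⟨h2, h3⟩ := h1
    exact (mem_maximalIdeal _).mp h3 ha
  refine ⟨hf, (H V).transfer K (Spec.map (CommRingCat.ofHom f) ≫ X.fromSpecStalk x) ?_ k ?_⟩
  · have h1 : Spec.map (CommRingCat.ofHom f) (closedPoint V) = closedPoint (X.presheaf.stalk x) :=
      IsLocalRing.comap_closedPoint f
    change X.fromSpecStalk x (Spec.map (CommRingCat.ofHom f) (closedPoint V)) = x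
    rw [h1, Scheme.fromSpecStalk_closedPoint]
  · rw [hk, ← Category.assoc, ← Spec.map_comp]
    rfl

/-- The section extends to the local scheme. -/
theorem exists_local (hh : h ≫ q = U.ι) (hxU : x ∉ U) [IsDomain (X.presheaf.stalk x)]
    (hx : IsIntegrallyClosed (X.presheaf.stalk x)) (hy₀ : q y₀ = x)
    {K : Type u} [Field K] [Algebra (X.presheaf.stalk x) K] [IsFractionRing (X.presheaf.stalk x) K]
    (H : ∀ (R : Type u) [CommRing R] [IsDomain R] [IsDiscreteValuationRing R],
      DvrLift q U h x y₀ R (FractionRing R))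
    (k : Spec (CommRingCat.of K) ⟶ U.toScheme) (hk : k ≫ U.ι = genMap X x K) :
    ∃ g₀ : Spec (X.presheaf.stalk x) ⟶ Y, g₀ ≫ q = X.fromSpecStalk x ∧
      g₀ (closedPoint (X.presheaf.stalk x)) = y₀ ∧
      Spec.map (CommRingCat.ofHom (algebraMap (X.presheaf.stalk x) K)) ≫ g₀ = k ≫ h := by
  have hinj : Function.Injective (algebraMap (X.presheaf.stalk x) K) := IsFractionRing.injective _ K
  -- the local ring is not a field
  have hnf : maximalIdeal (X.presheaf.stalk x) ≠ ⊥ := by
    intro hbot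
    apply hxU
    have h1 : (k ≫ U.ι) (closedPoint K) = x := by
      rw [hk, genMap, Scheme.Hom.comp_apply]
      have h2 : Spec.map (CommRingCat.ofHom (algebraMap (X.presheaf.stalk x) K)) (closedPoint K) =
          closedPoint (X.presheaf.stalk x) := by
        apply PrimeSpectrum.ext
        change Ideal.comap (algebraMap (X.presheaf.stalk x) K) (maximalIdeal K) =
          maximalIdeal (X.presheaf.stalk x)
        rw [hbot, IsLocalRing.isField_iff_maximalIdeal_eq.mp (Field.toIsField K)]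
        exact (RingHom.injective_iff_ker_eq_bot _).mp hinj
      rw [h2, Scheme.fromSpecStalk_closedPoint]
    rw [← h1, Scheme.Hom.comp_apply]
    have h3 : U.ι (k (closedPoint K)) ∈ Set.range U.ι := ⟨_, rfl⟩
    rw [Scheme.Opens.range_ι] at h3
    exact h3
  obtain ⟨a, ham, ha0⟩ := Submodule.exists_mem_ne_zero_of_ne_bot hnf
  have hc : (algebraMap (X.presheaf.stalk x) K a)⁻¹ ∉ Set.range (algebraMap (X.presheaf.stalk x) K) := by
    rintro ⟨b, hb⟩
    have h1 : algebraMap (X.presheaf.stalk x) K (a * b) = 1 := by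
      rw [map_mul, hb, mul_inv_cancel₀]
      rwa [Ne, map_eq_zero_iff _ hinj]
    rw [← map_one (algebraMap (X.presheaf.stalk x) K)] at h1
    exact (mem_maximalIdeal a).mp ham (IsUnit.of_mul_eq_one b (hinj h1))
  obtain ⟨V₀, hV₀, hVA₀, hVm₀, -⟩ := DvrIntegral.exists_dvr_not_mem hx hc
  obtain ⟨N, hN, hyN, -⟩ := exists_isAffineOpen_mem_and_subset (U := (⊤ : Y.Opens)) (x := y₀) trivial
  obtain ⟨hloc₀, h₀, hq₀, hc₀, hf₀⟩ := exists_of_dvr q U h x y₀ H k hk V₀ hV₀ hVA₀ hVm₀
  obtain ⟨α₀, hα₀⟩ := Ega2.DVRCriterion.factor' h₀ hN (hc₀ ▸ hyN)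
  let ev : Γ(Y, N) ⟶ CommRingCat.of K := α₀ ≫ CommRingCat.ofHom (algebraMap V₀ K)
  have hev : Spec.map ev ≫ hN.fromSpec = k ≫ h := by
    rw [Spec.map_comp, Category.assoc, hα₀, hf₀]
  -- the image of `ev` lies in the local ring
  have hmem : ∀ b, ev.hom b ∈ (algebraMap (X.presheaf.stalk x) K).range := by
    intro b
    by_contra hb
    obtain ⟨V, hV, hVA, hVm, hbV⟩ := DvrIntegral.exists_dvr_not_mem (c := ev.hom b) hx hb
    obtain ⟨-, h₁, hq₁, hc₁, hf₁⟩ := exists_of_dvr q U h x y₀ H k hk V hV hVA hVm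
    obtain ⟨α, hα⟩ := Ega2.DVRCriterion.factor' h₁ hN (hc₁ ▸ hyN)
    have h2 : α ≫ CommRingCat.ofHom (algebraMap V K) = ev := by
      apply Ega2.DVRCriterion.hom_eq hN
      rw [hev, Spec.map_comp, Category.assoc, hα, hf₁]
    apply hbV
    rw [← h2]
    exact (α.hom b).2
  let e : X.presheaf.stalk x ≃+* (algebraMap (X.presheaf.stalk x) K).range :=
    RingEquiv.ofBijective (algebraMap (X.presheaf.stalk x) K).rangeRestrict
      ⟨fun a b hab => hinj (congrArg Subtype.val hab), RingHom.rangeRestrict_surjective _⟩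
  have he : ∀ y, algebraMap (X.presheaf.stalk x) K (e.symm y) = y := fun y =>
    congrArg Subtype.val (e.apply_symm_apply y)
  let β : Γ(Y, N) ⟶ X.presheaf.stalk x := CommRingCat.ofHom
    (e.symm.toRingHom.comp (ev.hom.codRestrict _ hmem))
  have hβ : ∀ b, algebraMap (X.presheaf.stalk x) K (β.hom b) = ev.hom b := fun b => he _
  have hβ' : β ≫ CommRingCat.ofHom (algebraMap (X.presheaf.stalk x) K) = ev := by
    ext b
    exact hβ b
  let g₀ : Spec (X.presheaf.stalk x) ⟶ Y := Spec.map β ≫ hN.fromSpec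
  have hgK : Spec.map (CommRingCat.ofHom (algebraMap (X.presheaf.stalk x) K)) ≫ g₀ = k ≫ h := by
    rw [← hev, ← hβ', Spec.map_comp, Category.assoc]
    rfl
  have hgV : Spec.map (CommRingCat.ofHom
      ((algebraMap (X.presheaf.stalk x) K).codRestrict V₀.toSubring hVA₀)) ≫ g₀ = h₀ := by
    rw [← hα₀, ← Category.assoc, ← Spec.map_comp]
    congr 2
    ext b
    exact hβ b
  have hgc : g₀ (closedPoint (X.presheaf.stalk x)) = y₀ := by
    have h1 : Spec.map (CommRingCat.ofHom ((algebraMap (X.presheaf.stalk x) K).codRestrict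
      V₀.toSubring hVA₀)) (closedPoint V₀) = closedPoint (X.presheaf.stalk x) :=
      IsLocalRing.comap_closedPoint _
    rw [← h1, ← Scheme.Hom.comp_apply, hgV, hc₀]
  refine ⟨g₀, ?_, hgc, hgK⟩
  refine hom_ext_of_injective (A := X.presheaf.stalk x) (algebraMap (X.presheaf.stalk x) K) hinj
    _ _ ?_ ?_
  · rw [Scheme.Hom.comp_apply]
    have h1 := Scheme.fromSpecStalk_closedPoint (X := X) (x := x)
    exact (congrArg q hgc).trans (hy₀.trans h1.symm)
  · have h1 : Spec.map (CommRingCat.ofHom (algebraMap (X.presheaf.stalk x) K)) ≫ g₀ ≫ q =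
        genMap X x K := by
      rw [← Category.assoc, hgK, Category.assoc, hh, hk]
    exact h1

end Groth.Agent.Ega4late.H541.DvrLocal
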