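import Groth.Agent.Ega4late.H541.SecGlue
import Groth.Agent.Ega4late.H541.DvrIntegral
import Groth.Agent.Ega43.DvrDomination
import Mathlib.AlgebraicGeometry.Noetherian

/-!
# Extension of sections through a normal point: the criterion with discrete valuation rings
-/

set_option autoImplicit false
universe u
open CategoryTheory CategoryTheory.Limits AlgebraicGeometry IsLocalRing

namespace Groth.Agent.Ega4late.H541.DvrSection

open SecGlue

/-- Two morphisms from the spectrum of a local ring with the same image of the closed point which agree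
after an injective extension are equal. -/
theorem hom_ext_of_injective {X : Scheme.{u}} {A : Type u} [CommRing A] [IsLocalRing A] {K : Type u}
    [CommRing K] (φ : A →+* K) (hφ : Function.Injective φ) (a b : Spec (CommRingCat.of A) ⟶ X)
    (h : a (closedPoint A) = b (closedPoint A))
    (h' : Spec.map (CommRingCat.ofHom φ) ≫ a = Spec.map (CommRingCat.ofHom φ) ≫ b) : a = b := by
  obtain ⟨W, hW, hxW, -⟩ := exists_isAffineOpen_mem_and_subset
    (U := (⊤ : X.Opens)) (x := a (closedPoint A)) trivial
  obtain ⟨α, hα⟩ := Ega2.DVRCriterion.factor' a hW hxW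
  obtain ⟨β, hβ⟩ := Ega2.DVRCriterion.factor' b hW (h ▸ hxW)
  have key : α ≫ CommRingCat.ofHom φ = β ≫ CommRingCat.ofHom φ := by
    apply Ega2.DVRCriterion.hom_eq hW
    rw [Spec.map_comp, Spec.map_comp, Category.assoc, Category.assoc, hα, hβ, h']
  have hαβ : α = β := by
    have : Mono (CommRingCat.ofHom φ) := ConcreteCategory.mono_of_injective _ hφ
    exact (cancel_mono (CommRingCat.ofHom φ)).mp key
  rw [← hα, ← hβ, hαβ]

/-- The lifting property of the statement, for one point `x`, `y₀`. -/
def DvrLift {X Y : Scheme.{u}} (q : Y ⟶ X) (U : X.Opens) (h : U.toScheme ⟶ Y) (x : X) (y₀ : Y)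
    (R : Type u) [CommRing R] [IsDomain R] [IsLocalRing R] (L : Type u) [CommRing L] [Algebra R L] :
    Prop :=
  ∀ (u : Spec (CommRingCat.of R) ⟶ X), u (closedPoint R) = x →
    ∀ ub : Spec (CommRingCat.of L) ⟶ U.toScheme,
      ub ≫ U.ι = Spec.map (CommRingCat.ofHom (algebraMap R L)) ≫ u →
        ∃ h₁ : Spec (CommRingCat.of R) ⟶ Y, h₁ ≫ q = u ∧ h₁ (closedPoint R) = y₀ ∧
          Spec.map (CommRingCat.ofHom (algebraMap R L)) ≫ h₁ = ub ≫ h

/-- Transfer from the fraction ring to an arbitrary fraction field. -/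
theorem DvrLift.transfer {X Y : Scheme.{u}} {q : Y ⟶ X} {U : X.Opens} {h : U.toScheme ⟶ Y} {x : X}
    {y₀ : Y} {R : Type u} [CommRing R] [IsDomain R] [IsLocalRing R]
    (H : DvrLift q U h x y₀ R (FractionRing R)) (L : Type u) [Field L] [Algebra R L]
    [IsFractionRing R L] : DvrLift q U h x y₀ R L := by
  intro u hu ub hub
  let e : FractionRing R ≃ₐ[R] L := FractionRing.algEquiv R L
  let e₁ : CommRingCat.of (FractionRing R) ⟶ CommRingCat.of L := CommRingCat.ofHom e.toRingHom
  let e₂ : CommRingCat.of L ⟶ CommRingCat.of (FractionRing R) := CommRingCat.ofHom e.symm.toRingHom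
  have h21 : e₂ ≫ e₁ = 𝟙 _ := by
    ext a
    exact e.apply_symm_apply a
  have h1 : CommRingCat.ofHom (algebraMap R (FractionRing R)) ≫ e₁ =
      CommRingCat.ofHom (algebraMap R L) := by
    ext a
    exact e.commutes a
  have h2 : CommRingCat.ofHom (algebraMap R L) ≫ e₂ =
      CommRingCat.ofHom (algebraMap R (FractionRing R)) := by
    ext a
    exact e.symm.commutes a
  obtain ⟨h₁, hq, hc, hf⟩ := H u hu (Spec.map e₂ ≫ ub) (by
    rw [Category.assoc, hub, ← Category.assoc, ← Spec.map_comp, h2])
  refine ⟨h₁, hq, hc, ?_⟩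
  rw [← h1, Spec.map_comp, Category.assoc, hf, Category.assoc, ← Category.assoc, ← Spec.map_comp, h21,
    Spec.map_id, Category.id_comp]

variable {X Y : Scheme.{u}} [IsLocallyNoetherian X] (q : Y ⟶ X) (U : X.Opens)
  (h : U.toScheme ⟶ Y) (x : X) (y₀ : Y)

/-- Every generization of `x` in `U` is mapped by `h` into every open neighbourhood of `y₀`. -/
theorem mem_of_specializes (hxU : x ∉ U)
    (H : ∀ (R : Type u) [CommRing R] [IsDomain R] [IsDiscreteValuationRing R],
      DvrLift q U h x y₀ R (FractionRing R)) (N : Y.Opens) (hN : y₀ ∈ N) (z : U.toScheme)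
    (hz : U.ι z ⤳ x) : h z ∈ N := by
  have hz' : U.ι z ∈ Set.range (X.fromSpecStalk x) := by
    rw [Scheme.range_fromSpecStalk]; exact hz
  obtain ⟨p, hp⟩ := hz'
  let P : Ideal (X.presheaf.stalk x) := p.asIdeal
  have hP : P.IsPrime := p.2
  let D := X.presheaf.stalk x ⧸ P
  have hDloc : IsLocalRing D := IsLocalRing.of_surjective' (Ideal.Quotient.mk P) Ideal.Quotient.mk_surjective
  have hDf : ¬ IsField D := by
    intro hf
    have h1 : P.IsMaximal := Ideal.Quotient.maximal_of_isField P hf
    have h2 : P = maximalIdeal (X.presheaf.stalk x) := IsLocalRing.eq_maximalIdeal h1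
    have h3 : p = closedPoint (X.presheaf.stalk x) := PrimeSpectrum.ext h2
    rw [h3, Scheme.fromSpecStalk_closedPoint] at hp
    apply hxU
    rw [hp]
    have : U.ι z ∈ Set.range U.ι := ⟨z, rfl⟩
    rw [Scheme.Opens.range_ι] at this
    exact this
  obtain ⟨R, iR, iRd, iRv, iDR, iRL, hT, hfr, hloc, hinj⟩ :=
    Ega43.DvrDomination.exists_dvr_algebra D hDf (FractionRing D) (IsFractionRing.injective D _)
  let ψ : X.presheaf.stalk x →+* R := (algebraMap D R).comp (Ideal.Quotient.mk P)
  have hψloc : IsLocalHom ψ := by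
    have : IsLocalHom (Ideal.Quotient.mk P) :=
      IsLocalHom.of_surjective (Ideal.Quotient.mk P) Ideal.Quotient.mk_surjective
    exact RingHom.isLocalHom_comp _ _
  let u : Spec (CommRingCat.of R) ⟶ X := Spec.map (CommRingCat.ofHom ψ) ≫ X.fromSpecStalk x
  have hu : u (closedPoint R) = x := by
    have h1 : Spec.map (CommRingCat.ofHom ψ) (closedPoint R) = closedPoint (X.presheaf.stalk x) :=
      IsLocalRing.comap_closedPoint ψ
    change X.fromSpecStalk x (Spec.map (CommRingCat.ofHom ψ) (closedPoint R)) = x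
    rw [h1, Scheme.fromSpecStalk_closedPoint]
  let L := FractionRing D
  let v : Spec (CommRingCat.of L) ⟶ X := Spec.map (CommRingCat.ofHom (algebraMap R L)) ≫ u
  have hv : ∀ t, v t = U.ι z := by
    intro t
    have h1 : Spec.map (CommRingCat.ofHom ψ) (Spec.map (CommRingCat.ofHom (algebraMap R L)) t) = p := by
      apply PrimeSpectrum.ext
      ext a
      change algebraMap R L (algebraMap D R (Ideal.Quotient.mk P a)) ∈ t.asIdeal ↔ a ∈ P
      rw [← IsScalarTower.algebraMap_apply D R L, (Ideal.eq_bot_of_prime t.asIdeal), Ideal.mem_bot,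
        map_eq_zero_iff _ (IsFractionRing.injective D L), Ideal.Quotient.eq_zero_iff_mem]
    change X.fromSpecStalk x (Spec.map (CommRingCat.ofHom ψ)
      (Spec.map (CommRingCat.ofHom (algebraMap R L)) t)) = _
    rw [h1, hp]
  let ub : Spec (CommRingCat.of L) ⟶ U.toScheme := IsOpenImmersion.lift U.ι v (by
    rintro _ ⟨t, rfl⟩
    rw [hv]
    exact ⟨z, rfl⟩)
  have hub : ub ≫ U.ι = v := IsOpenImmersion.lift_fac _ _ _
  obtain ⟨h₁, -, hc, hf⟩ := (H R).transfer L u hu ub hub
  have hz1 : ub (closedPoint L) = z := by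
    apply U.ι.isOpenEmbedding.injective
    rw [← Scheme.Hom.comp_apply, hub, hv]
  have h2 : h₁ (Spec.map (CommRingCat.ofHom (algebraMap R L)) (closedPoint L)) ⤳ y₀ := by
    rw [← hc]
    exact (IsLocalRing.specializes_closedPoint _).map h₁.continuous
  have h3 : h z = h₁ (Spec.map (CommRingCat.ofHom (algebraMap R L)) (closedPoint L)) := by
    rw [← Scheme.Hom.comp_apply, hf, Scheme.Hom.comp_apply, hz1]
  rw [h3]
  exact h2.mem_open N.2 hN

end Groth.Agent.Ega4late.H541.DvrSection
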