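import Groth.Agent.Ega4late.H541.SecGlue

/-!
# Gluing a section on an open with a section on the local scheme at a point

`glue`: `X` locally Noetherian, `q : Y ⟶ X` locally of finite type (not necessarily separated), `h` a
section of `q` over an open `U`, `x` a point, `g₀ : Spec 𝒪_{X,x} ⟶ Y` an `X`-morphism which agrees with
`h` at the generic point (the local ring is embedded in the field `K`) and such that every
generization of `x` in `U` is mapped by `h` to every open neighbourhood of `y₀ = g₀(x)`. Then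
`h` extends to a section over an open containing `U` and `x`, with value `y₀` at `x`.
-/

set_option autoImplicit false
universe u
open CategoryTheory CategoryTheory.Limits AlgebraicGeometry

namespace Groth.Agent.Ega4late.H541.GlueAt

open SecGlue

/-- Glueing of a section given on a dense open with a section on the local scheme. -/
theorem glue {X Y : Scheme.{u}} [IsLocallyNoetherian X] (q : Y ⟶ X)
    [LocallyOfFiniteType q] (U : X.Opens) (h : (U : Scheme.{u}) ⟶ Y)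
    (hh : h ≫ q = U.ι) (x : ↥X) (y₀ : ↥Y) {K : Type u} [Field K]
    [Algebra (X.presheaf.stalk x) K] (hinj : Function.Injective (algebraMap (X.presheaf.stalk x) K))
    (k : Spec (CommRingCat.of K) ⟶ U.toScheme) (hk : k ≫ U.ι = genMap X x K)
    (g₀ : Spec (X.presheaf.stalk x) ⟶ Y) (hg₀ : g₀ ≫ q = X.fromSpecStalk x)
    (hg₀c : g₀ (IsLocalRing.closedPoint (X.presheaf.stalk x)) = y₀)
    (hg₀K : Spec.map (CommRingCat.ofHom (algebraMap (X.presheaf.stalk x) K)) ≫ g₀ = k ≫ h)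
    (hmem : ∀ (N : Y.Opens), y₀ ∈ N → ∀ z : U.toScheme, U.ι z ⤳ x → h z ∈ N) :
    ∃ (U' : X.Opens) (hUU' : U ≤ U') (hxU' : x ∈ U') (h' : (U' : Scheme.{u}) ⟶ Y),
        h' ≫ q = U'.ι ∧ X.homOfLE hUU' ≫ h' = h ∧ h' ⟨x, hxU'⟩ = y₀ := by
  obtain ⟨W₁, hxW₁, g, hg1, hg2⟩ := spread_out_of_isGermInjective' (𝟙 X) q g₀
    (by rw [hg₀, Category.comp_id])
  rw [Category.comp_id] at hg2
  have hgx : g ⟨x, hxW₁⟩ = y₀ := by
    rw [← hg₀c, hg1, Scheme.Hom.comp_apply]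
    congr 1
    apply W₁.ι.isOpenEmbedding.injective
    rw [← Scheme.Hom.comp_apply, Scheme.Opens.fromSpecStalkOfMem_ι, Scheme.fromSpecStalk_closedPoint]
    rfl
  obtain ⟨N, hN, hyN, -⟩ := exists_isAffineOpen_mem_and_subset (U := (⊤ : Y.Opens)) (x := y₀) trivial
  obtain ⟨W, hxW, hW, hWinj⟩ := X.exists_germ_injective x
  let G : X.Opens := W₁.ι ''ᵁ (g ⁻¹ᵁ N)
  have hxG : x ∈ G := ⟨⟨x, hxW₁⟩, by
    change g ⟨x, hxW₁⟩ ∈ N
    rw [hgx]; exact hyN, rfl⟩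
  have hGW₁ : G ≤ W₁ := by
    rintro _ ⟨w, -, rfl⟩
    exact w.2
  let Z : Set U.toScheme := ((h ⁻¹ᵁ N : U.toScheme.Opens) : Set U.toScheme)ᶜ
  have hZc : IsClosed Z := (h ⁻¹ᵁ N).2.isClosed_compl
  have hxZ : x ∉ closure (U.ι '' Z) := by
    intro hx
    obtain ⟨z, hz, hzx⟩ := Grpsch.ClosureImage.exists_specializes_of_mem_closure_image U.ι hZc hx
    exact hz (hmem N hyN z hzx)
  let C : X.Opens := ⟨(closure (U.ι '' Z))ᶜ, isClosed_closure.isOpen_compl⟩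
  let W₃ : X.Opens := W ⊓ G ⊓ C
  have hxW₃ : x ∈ W₃ := ⟨⟨hxW, hxG⟩, hxZ⟩
  have hW₃W₁ : W₃ ≤ W₁ := (inf_le_left.trans inf_le_right).trans hGW₁
  let g₃ : W₃.toScheme ⟶ Y := X.homOfLE hW₃W₁ ≫ g
  -- the generic point in `W₁` and `W₃`
  let k₁ : Spec (CommRingCat.of K) ⟶ W₁.toScheme :=
    Spec.map (CommRingCat.ofHom (algebraMap (X.presheaf.stalk x) K)) ≫ W₁.fromSpecStalkOfMem x hxW₁
  have hk₁ : k₁ ≫ W₁.ι = genMap X x K := by
    rw [Category.assoc, Scheme.Opens.fromSpecStalkOfMem_ι]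
  let k₃ : Spec (CommRingCat.of K) ⟶ W₃.toScheme :=
    Spec.map (CommRingCat.ofHom (algebraMap (X.presheaf.stalk x) K)) ≫ W₃.fromSpecStalkOfMem x hxW₃
  have hk₃ : k₃ ≫ W₃.ι = genMap X x K := by
    rw [Category.assoc, Scheme.Opens.fromSpecStalkOfMem_ι]
  have hk₃₁ : k₃ ≫ X.homOfLE hW₃W₁ = k₁ := by
    rw [← cancel_mono W₁.ι, Category.assoc, Scheme.homOfLE_ι, hk₃, hk₁]
  have hagree : pullback.fst U.ι W₃.ι ≫ h = pullback.snd U.ι W₃.ι ≫ g₃ := by
    let k₀ : Spec (CommRingCat.of K) ⟶ pullback U.ι W₃.ι := pullback.lift k k₃ (by rw [hk, hk₃])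
    have hk₀1 : k₀ ≫ pullback.fst U.ι W₃.ι = k := pullback.lift_fst _ _ _
    have hk₀2 : k₀ ≫ pullback.snd U.ι W₃.ι = k₃ := pullback.lift_snd _ _ _
    let t : pullback U.ι W₃.ι ⟶ X := pullback.snd U.ι W₃.ι ≫ W₃.ι
    have ht' : pullback.fst U.ι W₃.ι ≫ U.ι = t := pullback.condition
    have htop : IsOpenImmersion t := inferInstance
    have ht : Set.range t ⊆ (W : Set X) := by
      rintro _ ⟨p, rfl⟩
      have h1 : W₃.ι (pullback.snd U.ι W₃.ι p) ∈ Set.range W₃.ι := ⟨_, rfl⟩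
      rw [Scheme.Opens.range_ι] at h1
      exact h1.1.1
    obtain ⟨hkd, hTi⟩ := isDominant_lift_genMap hinj hW hxW hWinj t ht k₀ (by
      rw [← Category.assoc, hk₀2, hk₃])
    let a : pullback U.ι W₃.ι ⟶ N.toScheme := IsOpenImmersion.lift N.ι (pullback.fst U.ι W₃.ι ≫ h) (by
      rintro _ ⟨p, rfl⟩
      rw [Scheme.Opens.range_ι]
      have h1 : W₃.ι (pullback.snd U.ι W₃.ι p) ∈ Set.range W₃.ι := ⟨_, rfl⟩
      rw [Scheme.Opens.range_ι] at h1
      have h2 : U.ι (pullback.fst U.ι W₃.ι p) = W₃.ι (pullback.snd U.ι W₃.ι p) := by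
        rw [← Scheme.Hom.comp_apply, ht']; rfl
      by_contra hcon
      have h3 : U.ι (pullback.fst U.ι W₃.ι p) ∈ U.ι '' Z := ⟨_, hcon, rfl⟩
      rw [h2] at h3
      exact h1.2 (subset_closure h3))
    have ha : a ≫ N.ι = pullback.fst U.ι W₃.ι ≫ h := IsOpenImmersion.lift_fac _ _ _
    let b : pullback U.ι W₃.ι ⟶ N.toScheme := IsOpenImmersion.lift N.ι (pullback.snd U.ι W₃.ι ≫ g₃) (by
      rintro _ ⟨p, rfl⟩
      rw [Scheme.Opens.range_ι]
      have h1 : W₃.ι (pullback.snd U.ι W₃.ι p) ∈ Set.range W₃.ι := ⟨_, rfl⟩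
      rw [Scheme.Opens.range_ι] at h1
      obtain ⟨w, hw, hw'⟩ := h1.1.2
      have h2 : w = X.homOfLE hW₃W₁ (pullback.snd U.ι W₃.ι p) := by
        apply W₁.ι.isOpenEmbedding.injective
        rw [← Scheme.Hom.comp_apply, Scheme.homOfLE_ι]
        exact hw'
      rw [h2] at hw
      exact hw)
    have hb : b ≫ N.ι = pullback.snd U.ι W₃.ι ≫ g₃ := IsOpenImmersion.lift_fac _ _ _
    have hNaff : IsAffine N.toScheme := hN
    have hab : a = b := by
      refine ext_of_isDominant k₀ ?_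
      rw [← cancel_mono N.ι, Category.assoc, Category.assoc, ha, hb, ← Category.assoc,
        ← Category.assoc, hk₀1, hk₀2, ← hg₀K, hg1, ← Category.assoc k₃, hk₃₁]
      exact (Category.assoc _ _ _).symm
    rw [← ha, ← hb, hab]
  obtain ⟨c, hc1, hc2⟩ := glue_sup U W₃ h g₃ hagree
  refine ⟨U ⊔ W₃, le_sup_left, (le_sup_right : W₃ ≤ U ⊔ W₃) hxW₃, c, ?_, hc1, ?_⟩
  · refine hom_ext_sup ?_ ?_
    · rw [← Category.assoc, hc1, hh, Scheme.homOfLE_ι]
    · rw [← Category.assoc, hc2, Category.assoc, hg2, Scheme.homOfLE_ι, Scheme.homOfLE_ι]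
  · have h1 : X.homOfLE (le_sup_right : W₃ ≤ U ⊔ W₃) ⟨x, hxW₃⟩ =
        ⟨x, (le_sup_right : W₃ ≤ U ⊔ W₃) hxW₃⟩ := by
      apply (U ⊔ W₃).ι.isOpenEmbedding.injective
      rw [← Scheme.Hom.comp_apply, Scheme.homOfLE_ι]
      rfl
    rw [← h1, ← Scheme.Hom.comp_apply, hc2, ← hgx, Scheme.Hom.comp_apply]
    congr 1
    apply W₁.ι.isOpenEmbedding.injective
    rw [← Scheme.Hom.comp_apply, Scheme.homOfLE_ι]
    rfl

end Groth.Agent.Ega4late.H541.GlueAt
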