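import Mathlib.AlgebraicGeometry.Morphisms.Separated
import Mathlib.AlgebraicGeometry.SpreadingOut
import Mathlib.AlgebraicGeometry.FunctionField
import Groth.Agent.Ega2.DVRCriterion
import Groth.Agent.Grpsch.ClosureImage

/-!
# Gluing a section given near a point with a section given on a dense open
-/

set_option autoImplicit false
universe u
open CategoryTheory CategoryTheory.Limits AlgebraicGeometry

namespace Groth.Agent.Ega4late.H541.SecGlue

/-- Glueing of two morphisms on opens `A`, `B` to a morphism on `A ⊔ B`. -/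
theorem glue_sup {X P : Scheme.{u}} (A B : X.Opens) (a : A.toScheme ⟶ P) (b : B.toScheme ⟶ P)
    (h : pullback.fst A.ι B.ι ≫ a = pullback.snd A.ι B.ι ≫ b) :
    ∃ c : (A ⊔ B : X.Opens).toScheme ⟶ P, X.homOfLE (le_sup_left : A ≤ A ⊔ B) ≫ c = a ∧
      X.homOfLE (le_sup_right : B ≤ A ⊔ B) ≫ c = b := by
  let V : Bool → X.Opens := fun t => Bool.rec A B t
  have hsup : (⨆ t, V t) = A ⊔ B := by
    rw [iSup_bool_eq]
    exact sup_comm _ _
  let f : ∀ t : Bool, (V t).toScheme ⟶ P := fun t => Bool.rec a b t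
  let 𝒰 := Scheme.Opens.iSupOpenCover V
  have hι : ∀ t, 𝒰.f t ≫ (⨆ i, V i).ι = (V t).ι := fun t => Scheme.homOfLE_ι _ (le_iSup V t)
  have h' : ∀ (T : Scheme.{u}) (p : T ⟶ A.toScheme) (r : T ⟶ B.toScheme),
      p ≫ A.ι = r ≫ B.ι → p ≫ a = r ≫ b := by
    intro T p r hpr
    have h1 : pullback.lift p r hpr ≫ pullback.fst A.ι B.ι ≫ a =
        pullback.lift p r hpr ≫ pullback.snd A.ι B.ι ≫ b := by rw [h]
    rw [← Category.assoc, ← Category.assoc, pullback.lift_fst, pullback.lift_snd] at h1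
    exact h1
  have key : ∀ x y : Bool, ∀ (T : Scheme.{u}) (p : T ⟶ (V x).toScheme) (r : T ⟶ (V y).toScheme),
      p ≫ (V x).ι = r ≫ (V y).ι → p ≫ f x = r ≫ f y := by
    rintro (_ | _) (_ | _) T p r hpr
    · have : p = r := (cancel_mono A.ι).mp hpr
      rw [this]
    · exact h' T p r hpr
    · exact (h' T r p hpr.symm).symm
    · have : p = r := (cancel_mono B.ι).mp hpr
      rw [this]
  have hf : ∀ x y : Bool, pullback.fst (𝒰.f x) (𝒰.f y) ≫ f x = pullback.snd (𝒰.f x) (𝒰.f y) ≫ f y := by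
    intro x y
    refine key x y _ _ _ ?_
    rw [← hι x, ← hι y]
    exact pullback.condition_assoc (f := 𝒰.f x) (g := 𝒰.f y) (⨆ i, V i).ι
  have hc : ∀ t, 𝒰.f t ≫ 𝒰.glueMorphisms f hf = f t := fun t => 𝒰.ι_glueMorphisms f hf t
  refine ⟨X.homOfLE hsup.ge ≫ 𝒰.glueMorphisms f hf, ?_, ?_⟩
  · rw [Scheme.homOfLE_homOfLE_assoc]
    exact hc false
  · rw [Scheme.homOfLE_homOfLE_assoc]
    exact hc true

/-- Uniqueness of the gluing. -/
theorem hom_ext_sup {X P : Scheme.{u}} {A B : X.Opens} {c d : (A ⊔ B : X.Opens).toScheme ⟶ P}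
    (h1 : X.homOfLE (le_sup_left : A ≤ A ⊔ B) ≫ c = X.homOfLE (le_sup_left : A ≤ A ⊔ B) ≫ d)
    (h2 : X.homOfLE (le_sup_right : B ≤ A ⊔ B) ≫ c = X.homOfLE (le_sup_right : B ≤ A ⊔ B) ≫ d) :
    c = d := by
  let V : Bool → X.Opens := fun t => Bool.rec A B t
  have hsup : (⨆ t, V t) = A ⊔ B := by
    rw [iSup_bool_eq]
    exact sup_comm _ _
  let 𝒰 := Scheme.Opens.iSupOpenCover V
  have key : X.homOfLE hsup.le ≫ c = X.homOfLE hsup.le ≫ d := by
    refine 𝒰.hom_ext _ _ ?_
    rintro (_ | _)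
    · change X.homOfLE (le_iSup V false) ≫ _ = X.homOfLE (le_iSup V false) ≫ _
      rw [Scheme.homOfLE_homOfLE_assoc, Scheme.homOfLE_homOfLE_assoc]
      exact h1
    · change X.homOfLE (le_iSup V true) ≫ _ = X.homOfLE (le_iSup V true) ≫ _
      rw [Scheme.homOfLE_homOfLE_assoc, Scheme.homOfLE_homOfLE_assoc]
      exact h2
  have h3 : X.homOfLE hsup.ge ≫ X.homOfLE hsup.le = 𝟙 _ := by
    rw [Scheme.homOfLE_homOfLE]
    exact Scheme.homOfLE_rfl _ _
  have h4 := congrArg (fun z => X.homOfLE hsup.ge ≫ z) key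
  simp only [← Category.assoc, h3, Category.id_comp] at h4
  exact h4

/-- The canonical morphism from the spectrum of the fraction field of a local ring which is a domain. -/
noncomputable abbrev genMap (X : Scheme.{u}) (x : X) (K : Type u) [Field K]
    [Algebra (X.presheaf.stalk x) K] : Spec (CommRingCat.of K) ⟶ X :=
  Spec.map (CommRingCat.ofHom (algebraMap (X.presheaf.stalk x) K)) ≫ X.fromSpecStalk x

section

variable {X : Scheme.{u}} {x : X} {K : Type u} [Field K] [Algebra (X.presheaf.stalk x) K]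
  (hK : Function.Injective (algebraMap (X.presheaf.stalk x) K))

include hK in
/-- Near a point whose local ring is a domain (and with the germ map injective), the scheme is
integral with generic point given by `genMap`. -/
theorem isDominant_lift_genMap {W : X.Opens} (hW : IsAffineOpen W) (hxW : x ∈ W)
    (hinj : Function.Injective (X.presheaf.germ W x hxW)) {T : Scheme.{u}} (t : T ⟶ X)
    [IsOpenImmersion t] (ht : Set.range t ⊆ W) (k : Spec (CommRingCat.of K) ⟶ T)
    (hk : k ≫ t = genMap X x K) : IsDominant k ∧ IsIntegral T := by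
  let φ : Γ(X, W) ⟶ CommRingCat.of K := X.presheaf.germ W x hxW ≫
    CommRingCat.ofHom (algebraMap (X.presheaf.stalk x) K)
  have hφ : Function.Injective φ.hom := by
    change Function.Injective (fun a => algebraMap (X.presheaf.stalk x) K ((X.presheaf.germ W x hxW) a))
    exact hK.comp hinj
  have hdomW : IsDomain Γ(X, W) := hφ.isDomain φ.hom
  have hgen : Spec.map φ ≫ hW.fromSpec = genMap X x K := by
    have h1 := hW.fromSpecStalk_eq_fromSpecStalk hxW
    rw [IsAffineOpen.fromSpecStalk] at h1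
    rw [genMap, ← h1, ← Category.assoc, ← Spec.map_comp]
    rfl
  let s : T ⟶ Spec Γ(X, W) := IsOpenImmersion.lift hW.fromSpec t (by
    rw [hW.range_fromSpec]; exact ht)
  have hs : s ≫ hW.fromSpec = t := IsOpenImmersion.lift_fac _ _ _
  have hsop : IsOpenImmersion s := by
    have : IsOpenImmersion (s ≫ hW.fromSpec) := by rw [hs]; infer_instance
    exact IsOpenImmersion.of_comp s hW.fromSpec
  have hks : k ≫ s = Spec.map φ := by
    rw [← cancel_mono hW.fromSpec, Category.assoc, hs, hk, hgen]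
  have hdomφ : IsDominant (Spec.map φ) := by
    refine ⟨?_⟩
    have := (PrimeSpectrum.denseRange_comap_iff_ker_le_nilRadical φ.hom).mpr (by
      rw [(RingHom.injective_iff_ker_eq_bot _).mp hφ]
      exact bot_le)
    exact this
  have hkd : IsDominant k := by
    have : IsDominant (k ≫ s) := by rw [hks]; exact hdomφ
    exact IsDominant.of_comp_of_isOpenImmersion k s
  have hne : Nonempty T := ⟨k (IsLocalRing.closedPoint K)⟩
  have hint : IsIntegral (Spec Γ(X, W)) := inferInstance
  exact ⟨hkd, isIntegral_of_isOpenImmersion s⟩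

include hK in
/-- The generic point lies in every dense open. -/
theorem exists_lift_genMap [X.IsGermInjectiveAt x] {U : X.Opens} (hU : Dense (U : Set X)) :
    ∃ k : Spec (CommRingCat.of K) ⟶ U.toScheme, k ≫ U.ι = genMap X x K := by
  obtain ⟨W, hxW, hW, hinj⟩ := X.exists_germ_injective x
  -- lift to `W`
  have hrW : Set.range (genMap X x K) ⊆ Set.range W.ι := by
    rintro _ ⟨p, rfl⟩
    rw [Scheme.Opens.range_ι]
    have h1 : (genMap X x K) p ⤳ x := by
      have h2 : X.fromSpecStalk x ((Spec.map (CommRingCat.ofHom (algebraMap (X.presheaf.stalk x) K))) p) ∈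
        Set.range (X.fromSpecStalk x) := ⟨_, rfl⟩
      rw [Scheme.range_fromSpecStalk] at h2
      exact h2
    exact h1.mem_open W.2 hxW
  let k : Spec (CommRingCat.of K) ⟶ W.toScheme := IsOpenImmersion.lift W.ι (genMap X x K) hrW
  have hk : k ≫ W.ι = genMap X x K := IsOpenImmersion.lift_fac _ _ _
  obtain ⟨hkd, -⟩ := isDominant_lift_genMap hK hW hxW hinj W.ι (by rw [Scheme.Opens.range_ι]) k hk
  -- the open `U ∩ W` of `W` is nonempty, hence meets the range of `k`
  have hne : (((W.ι ⁻¹ᵁ U : W.toScheme.Opens) : Set W.toScheme)).Nonempty := by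
    obtain ⟨z, hzW, hzU⟩ := hU.inter_open_nonempty (W : Set X) W.2 ⟨x, hxW⟩
    exact ⟨⟨z, hzW⟩, hzU⟩
  obtain ⟨p, hp⟩ := hkd.1.exists_mem_open (W.ι ⁻¹ᵁ U).2 hne
  refine ⟨IsOpenImmersion.lift U.ι (genMap X x K) ?_, IsOpenImmersion.lift_fac _ _ _⟩
  rintro _ ⟨p', rfl⟩
  rw [Scheme.Opens.range_ι]
  obtain rfl : p' = p := Subsingleton.elim _ _
  rw [← hk]
  exact hp

end

end Groth.Agent.Ega4late.H541.SecGlue
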